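import Cfsg.Agent.Lib.Helper49.SAF.Iface

/-!
# SAF (S4025) package [HAPP]
-/

set_option autoImplicit false

namespace Cfsg.Agent.Lib.Helper84.SAF

open Cfsg.Agent.Lib.Helper49.SAFI Cfsg.Agent.Lib.Helper49.HUP

universe u v

/-- the scalar multiplications, as a homomorphism -/
noncomputable def scal (p : ℕ) (V : Type u) [AddCommGroup V] [Module (ZMod p) V] :
    (ZMod p)ˣ →* (V ≃ₗ[ZMod p] V) :=
  (LinearMap.GeneralLinearGroup.generalLinearEquiv (ZMod p) V).toMonoidHom.comp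
    (Units.map (algebraMap (ZMod p) (Module.End (ZMod p) V)).toMonoidHom)

theorem scal_apply (p : ℕ) (V : Type u) [AddCommGroup V] [Module (ZMod p) V] (c : (ZMod p)ˣ)
    (v : V) : scal p V c v = (c : ZMod p) • v := rfl

theorem pkgHApp : PkgHApp.{u, v} := by
  intro hub p _ V _ _ _ _ N _ _ ρ hsolv hT
  classical
  haveI : Finite (V ≃ₗ[ZMod p] V) :=
    Finite.of_injective (fun f : V ≃ₗ[ZMod p] V => (f : V → V)) DFunLike.coe_injective
  have hcomm : ∀ (m : ↥ρ.range) (c : (ZMod p)ˣ), Commute (ρ.range.subtype m) (scal p V c) := by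
    intro m c
    ext v
    show (m : V ≃ₗ[ZMod p] V) (scal p V c v) = scal p V c ((m : V ≃ₗ[ZMod p] V) v)
    rw [scal_apply, scal_apply, map_smul]
  let φ : ↥ρ.range × (ZMod p)ˣ →* (V ≃ₗ[ZMod p] V) :=
    MonoidHom.noncommCoprod ρ.range.subtype (scal p V) hcomm
  have hφ : ∀ (m : ↥ρ.range) (c : (ZMod p)ˣ), φ (m, c) = (m : V ≃ₗ[ZMod p] V) * scal p V c :=
    fun m c => rfl
  haveI : Group.IsSolvable ↥ρ.range := hsolv
  have hsolv' : Group.IsSolvable ↥φ.range :=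
    Group.isSolvable_of_surjective (f := φ.rangeRestrict) φ.rangeRestrict_surjective
  have hinj : Function.Injective (φ.range.subtype) := Subgroup.subtype_injective _
  have htr : ∀ v w : V, v ≠ 0 → w ≠ 0 → ∃ g : ↥φ.range, φ.range.subtype g v = w := by
    intro v w hv hw
    obtain ⟨g, c, hg⟩ := hT v w hv hw
    have hc : c ≠ 0 := by
      intro h
      rw [h, zero_smul] at hg
      exact hv ((ρ g).map_eq_zero_iff.mp hg)
    refine ⟨⟨φ (⟨ρ g, g, rfl⟩, (Units.mk0 c hc)⁻¹), _, rfl⟩, ?_⟩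
    show φ (⟨ρ g, g, rfl⟩, (Units.mk0 c hc)⁻¹) v = w
    rw [hφ]
    show ρ g (scal p V (Units.mk0 c hc)⁻¹ v) = w
    rw [scal_apply, map_smul, hg, smul_smul]
    have : (((Units.mk0 c hc)⁻¹ : (ZMod p)ˣ) : ZMod p) * c = 1 := by
      rw [Units.val_inv_eq_inv_val, Units.val_mk0]
      exact inv_mul_cancel₀ hc
    rw [this, one_smul]
  rcases hub p hsolv' φ.range.subtype hinj htr with ⟨F, hF, hFt, e, he⟩ | h
  · left
    refine ⟨F, hF, hFt, e, fun g => ?_⟩
    have hmem : ρ g ∈ φ.range := ⟨(⟨ρ g, g, rfl⟩, 1), by rw [hφ, map_one, mul_one]⟩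
    exact he ⟨ρ g, hmem⟩
  · right
    exact h

end Cfsg.Agent.Lib.Helper84.SAF
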