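import Cfsg.Agent.Lib.Helper49.SAF.Iface
import Cfsg.Agent.Lib.Helper22.PComp
import Cfsg.Agent.Lib.Helper50.Burnside

/-!
# SAF (S4025) package [KER] (with the necessary extra hypothesis `n ≠ 0`)
-/

set_option autoImplicit false

namespace Cfsg.Agent.Lib.Helper84.SAF

open Cfsg.Agent.Lib.Helper49.SAFI

universe u v

theorem pkgKer' : ∀ {p n : ℕ} [Fact p.Prime] {N : Type v} [Group N] [Finite N] (Q : Subgroup N)
    {V : Type u} [AddCommGroup V] [Module (ZMod p) V] (ψ : Q ≃ V) (ρ : N →* (V ≃ₗ[ZMod p] V)),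
    Setup p n Q → n ≠ 0 → IsLin Q ψ ρ →
    Cfsg.pPrimeCore p N ≤ ρ.ker ∧
      Nat.card (N ⧸ Cfsg.pPrimeCore p N) = Nat.card V * Nat.card ρ.range := by
  intro p n hpf N _ _ Q V _ _ ψ ρ hS hn hL
  classical
  have hp : p.Prime := hpf.out
  haveI := hS.normal
  obtain ⟨hadd, hconj⟩ := hL
  -- the kernel of `ρ` is the centraliser of `Q`
  have hker : ∀ c ∈ ρ.ker, ∀ x ∈ Q, c * x * c⁻¹ = x := by
    intro c hc x hx
    have h1 := hconj c ⟨x, hx⟩ (hS.normal.conj_mem x hx c)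
    rw [MonoidHom.mem_ker] at hc
    rw [hc] at h1
    have h2 := ψ.injective h1
    exact (congrArg Subtype.val h2).symm
  have hker' : ∀ g : N, (∀ x ∈ Q, g * x * g⁻¹ = x) → g ∈ ρ.ker := by
    intro g hg
    rw [MonoidHom.mem_ker]
    ext v
    obtain ⟨y, rfl⟩ := ψ.surjective v
    rw [hconj g y (hS.normal.conj_mem y.1 y.2 g)]
    show ψ _ = ψ y
    congr 1
    exact Subtype.ext (hg y.1 y.2)
  -- the `p'`-core
  have hKcop : (Nat.card (Cfsg.pPrimeCore p N)).Coprime p :=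
    Cfsg.Agent.Lib.Helper22.card_pPrimeCore_coprime p N
  have hKQ : Cfsg.pPrimeCore p N ⊓ Q = ⊥ := by
    apply Subgroup.inf_eq_bot_of_coprime
    rw [hS.card]
    exact Nat.Coprime.pow_right n hKcop
  have hKC : Cfsg.pPrimeCore p N ≤ ρ.ker := by
    intro k hk
    apply hker'
    intro x hx
    have h1 : k * x * k⁻¹ * x⁻¹ ∈ Cfsg.pPrimeCore p N ⊓ Q := by
      constructor
      · have : k * x * k⁻¹ * x⁻¹ = k * (x * k⁻¹ * x⁻¹) := by group
        rw [this]
        exact Subgroup.mul_mem _ hk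
          ((Cfsg.pPrimeCore_normal p N).conj_mem _ (Subgroup.inv_mem _ hk) x)
      · exact Subgroup.mul_mem _ (hS.normal.conj_mem x hx k) (Subgroup.inv_mem _ hx)
    rw [hKQ, Subgroup.mem_bot] at h1
    calc k * x * k⁻¹ = (k * x * k⁻¹ * x⁻¹) * x := by group
      _ = x := by rw [h1, one_mul]
  refine ⟨hKC, ?_⟩
  have hQC : Q ≤ ρ.ker := by
    intro g hg
    apply hker'
    intro x hx
    rw [hS.comm g hg x hx]
    group
  -- `Q` as a central Sylow subgroup of the kernel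
  have hpidx : ¬ p ∣ Q.index := by
    have h1 : Nat.Coprime p Q.index :=
      Nat.Coprime.coprime_dvd_left (dvd_pow_self p hn) (hS.card ▸ hS.cop)
    exact (Nat.Prime.coprime_iff_not_dvd hp).mp h1
  have hpidx' : ¬ p ∣ (Q.subgroupOf ρ.ker).index := by
    intro h
    exact hpidx (h.trans (Subgroup.relIndex_dvd_index_of_le hQC))
  have hpg : IsPGroup p ↥(Q.subgroupOf ρ.ker) := hS.pgroup.comap_subtype
  have hcen : Subgroup.normalizer (((hpg.toSylow hpidx' : Sylow p ↥ρ.ker) : Subgroup ↥ρ.ker) : Set ↥ρ.ker)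
      ≤ Subgroup.centralizer ((hpg.toSylow hpidx' : Sylow p ↥ρ.ker) : Set ↥ρ.ker) := by
    intro c _
    rw [Subgroup.mem_centralizer_iff]
    intro y hy
    have hy' : (y : N) ∈ Q := by
      have : y ∈ Q.subgroupOf ρ.ker := (IsPGroup.mem_toSylow hpg hpidx').mp hy
      exact Subgroup.mem_subgroupOf.mp this
    apply Subtype.ext
    show (y : N) * (c : N) = (c : N) * (y : N)
    have h1 := hker c.1 c.2 y.1 hy'
    calc (y : N) * (c : N) = ((c : N) * (y : N) * (c : N)⁻¹) * (c : N) := by rw [h1]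
      _ = (c : N) * (y : N) := by group
  have hcompl := Cfsg.Agent.Lib.Helper50.pPrimeCore_isComplement' (hpg.toSylow hpidx') hcen
  have hcard1 := hcompl.card_mul_card
  rw [IsPGroup.toSylow_coe] at hcard1
  have hQcard : Nat.card ↥(Q.subgroupOf ρ.ker) = Nat.card Q :=
    Nat.card_congr (Subgroup.subgroupOfEquivOfLe hQC).toEquiv
  rw [hQcard] at hcard1
  -- the `p'`-core of the kernel has the order of the `p'`-core
  have hle1 : Nat.card (Cfsg.pPrimeCore p ↥ρ.ker) ≤ Nat.card (Cfsg.pPrimeCore p N) := by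
    have h1 := Cfsg.Agent.Lib.Helper22.pPrimeCore_map_subtype_le_of_normal p ρ.ker
    have h2 := Subgroup.card_le_of_le h1
    rw [Subgroup.card_subtype] at h2
    exact h2
  have hle2 : Nat.card (Cfsg.pPrimeCore p N) ≤ Nat.card (Cfsg.pPrimeCore p ↥ρ.ker) := by
    have hcardK : Nat.card ↥((Cfsg.pPrimeCore p N).subgroupOf ρ.ker) =
        Nat.card (Cfsg.pPrimeCore p N) :=
      Nat.card_congr (Subgroup.subgroupOfEquivOfLe hKC).toEquiv
    have h1 : (Cfsg.pPrimeCore p N).subgroupOf ρ.ker ≤ Cfsg.pPrimeCore p ↥ρ.ker := by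
      apply Cfsg.Agent.Lib.Helper22.le_pPrimeCore_of_normal p
        ((Cfsg.pPrimeCore_normal p N).subgroupOf ρ.ker)
      rw [hcardK]; exact hKcop
    have h2 := Subgroup.card_le_of_le h1
    rw [hcardK] at h2
    exact h2
  have hKeq : Nat.card (Cfsg.pPrimeCore p ↥ρ.ker) = Nat.card (Cfsg.pPrimeCore p N) :=
    le_antisymm hle1 hle2
  rw [hKeq] at hcard1
  -- counting
  have hN1 := Subgroup.card_eq_card_quotient_mul_card_subgroup (Cfsg.pPrimeCore p N)
  have hN2 := Subgroup.card_eq_card_quotient_mul_card_subgroup ρ.ker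
  have hN3 : Nat.card (N ⧸ ρ.ker) = Nat.card ρ.range :=
    Nat.card_congr (QuotientGroup.quotientKerEquivRange ρ).toEquiv
  have hV : Nat.card V = Nat.card Q := (Nat.card_congr ψ).symm
  have hK0 : 0 < Nat.card (Cfsg.pPrimeCore p N) := Nat.card_pos
  rw [hN3, ← hcard1] at hN2
  rw [hN2] at hN1
  rw [hV]
  have : Nat.card (N ⧸ Cfsg.pPrimeCore p N) * Nat.card (Cfsg.pPrimeCore p N) =
      (Nat.card Q * Nat.card ρ.range) * Nat.card (Cfsg.pPrimeCore p N) := by
    rw [← hN1]; ring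
  exact Nat.eq_of_mul_eq_mul_right hK0 this

end Cfsg.Agent.Lib.Helper84.SAF
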