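import Cfsg.Agent.Lib.Helper49.SAF.Iface

/-!
# SAF (S4025) package [T1DIV]
-/

set_option autoImplicit false

namespace Cfsg.Agent.Lib.Helper84.SAF

open Cfsg.Agent.Lib.Helper49.SAFI

universe u v

theorem pkgT1Div : PkgT1Div.{u, v} := by
  intro V _ _ _ _ N _ _ ρ hT
  classical
  obtain ⟨v0, hv0⟩ := exists_ne (0 : V)
  have horb : MulAction.orbit ↥ρ.range v0 = ({0} : Set V)ᶜ := by
    ext w
    constructor
    · rintro ⟨⟨f, hf⟩, rfl⟩
      show f v0 ∈ ({0} : Set V)ᶜ
      intro h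
      apply hv0
      have h' : f v0 = 0 := h
      exact f.map_eq_zero_iff.mp h'
    · intro hw
      have hw0 : w ≠ 0 := hw
      obtain ⟨g, c, hg⟩ := hT v0 w hv0 hw0
      have hc0 : c ≠ 0 := by
        intro h
        rw [h, zero_smul] at hg
        exact hv0 ((ρ g).map_eq_zero_iff.mp hg)
      have hall : ∀ c : ZMod 2, c ≠ 0 → c = 1 := by decide
      have hc : c = 1 := hall c hc0
      rw [hc, one_smul] at hg
      exact ⟨⟨ρ g, g, rfl⟩, hg⟩
  have hidx := MulAction.index_stabilizer ↥ρ.range v0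
  rw [horb, Set.ncard_compl, Set.ncard_singleton] at hidx
  rw [← hidx]
  exact Subgroup.index_dvd_card _

end Cfsg.Agent.Lib.Helper84.SAF
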